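import Cfsg.Agent.Lib.KInf.Control
import Cfsg.Prelude.Def_Amalgam

/-!
Quadratic elements on the centre of the core, from the K-infinity subgroups.
-/

set_option autoImplicit false
set_option linter.style.haveILetI false

namespace CfsgLib.KInf

open Cfsg CfsgLib.ConjFunctor

universe u

variable {G : Type u} [Group G] [Finite G] {p : ℕ} [Fact p.Prime]
  {W : ∀ (Q : Type u) [Group Q], Subgroup Q}

theorem IsKInf.exists_quadratic_center (h : IsKInf W) {H T : Subgroup G} (hTH : T ≤ H) (hT : IsPGroup p T)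
    (hTi : ¬ p ∣ T.relIndex H) (hn : ¬ H ≤ Subgroup.normalizer (Cfsg.inducedFunctor W T : Set G)) :
    ∃ g : G, g ∈ T ∧ g ∉ Cfsg.pCoreOf p H ∧
      ⁅⁅Cfsg.pCoreOf p H ⊓ Subgroup.centralizer (Cfsg.pCoreOf p H : Set G), Subgroup.zpowers g⁆,
        Subgroup.zpowers g⁆ = ⊥ := by
  obtain ⟨U, hU⟩ := exists_sylow_subgroupOf hT hTH hTi
  have inj := H.subtype_injective
  have hmap : (U : Subgroup H).map H.subtype = T := by rw [hU, Subgroup.map_subgroupOf_eq_of_le hTH]
  have hnn : ¬ (Cfsg.inducedFunctor W (U : Subgroup H)).Normal := fun hN => hn <| by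
    rw [← hmap, inducedFunctor_map h.isCharPFunctor H.subtype U.2 fun x _ hx => Subtype.ext hx]
    refine le_trans (le_of_eq ?_) (Subgroup.le_normalizer_map H.subtype)
    rw [Subgroup.normalizer_eq_top_iff.2 hN, ← MonoidHom.range_eq_map, Subgroup.range_subtype]
  obtain ⟨g, h1, h2, -, h4, -⟩ := exists_engel_four U (h.not_normal hnn)
  refine ⟨g, hmap ▸ Subgroup.mem_map_of_mem _ h1, fun hh => h2 ((Subgroup.mem_map_iff_mem inj).1 hh), ?_⟩
  have h5 := congrArg (Subgroup.map H.subtype) h4
  rw [Subgroup.map_commutator, Subgroup.map_commutator, MonoidHom.map_zpowers, Subgroup.map_bot,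
    map_inf_centralizer inj] at h5
  exact h5

end CfsgLib.KInf
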